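import Cfsg.Agent.H972.GUS.One

/-!
# Overgroups of `SU_n(q₀)` in `SU_n(q)`, `n ≥ 4`: part two (helper972)

Lines and generic vectors, the dichotomy: see part one.
-/

set_option autoImplicit false
set_option linter.unusedSectionVars false
set_option linter.unusedSimpArgs false

namespace Cfsg.Agent.H972.GUS

open Cfsg Cfsg.Geo Cfsg.Agent.H918 Cfsg.Agent.LieClassical.HermBasic Cfsg.Agent.LieClassical.HermSiegel
open Cfsg.Agent.LieClassical.HermGen Cfsg.Agent.H930 Cfsg.Agent.H873.Sub Cfsg.Agent.H930.GUSub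
open scoped Matrix MatrixGroups

section secE



variable {F : Type*} [Field F] [Fintype F] {n q : ℕ} {F₀ : Subfield F} [Fintype F₀] {q₀ : ℕ}
variable (S : Setup F₀ q q₀)

include S in
theorem ratio {w w₀ w'' : Fin n → F₀} {l l₀ l'' : F} (hl₀ : l₀ ≠ 0) (hw₀ : w₀ ≠ 0) (hind : ∀ s : F₀, w ≠ s • w₀)
    (h : l • cv F₀ w + l₀ • cv F₀ w₀ = l'' • cv F₀ w'') : ∃ t : F₀, l = l₀ * t := by
  have hind' : ∀ s : F₀, w₀ ≠ s • w := by
    intro s hs
    have hs0 : s ≠ 0 := by
      rintro rfl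
      rw [zero_smul] at hs
      exact hw₀ hs
    apply hind s⁻¹
    rw [hs, smul_smul, inv_mul_cancel₀ hs0, one_smul]
  obtain ⟨x, hx, hx'⟩ := exists_dual S.hF₀ hind
  obtain ⟨y, hy, hy'⟩ := exists_dual S.hF₀ hind'
  have hxs := herm_eq_zero_swap S.hF₀ hx
  have hys := herm_eq_zero_swap S.hF₀ hy
  have hxn : hermForm n F₀ q₀ w x ≠ 0 := fun h0 => hx' (herm_eq_zero_swap S.hF₀ h0)
  have hyn : hermForm n F₀ q₀ w₀ y ≠ 0 := fun h0 => hy' (herm_eq_zero_swap S.hF₀ h0)
  have e1 := congrArg (fun z => hermForm n F q z (cv F₀ x)) h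
  have e2 := congrArg (fun z => hermForm n F q z (cv F₀ y)) h
  simp only [herm_add_left, herm_smul_left, herm_cv S, hxs, hys, ZeroMemClass.coe_zero, mul_zero, add_zero, zero_add] at e1 e2
  have hxn' : ((hermForm n F₀ q₀ w x : F₀) : F) ≠ 0 := by exact_mod_cast hxn
  have hyn' : ((hermForm n F₀ q₀ w₀ y : F₀) : F) ≠ 0 := by exact_mod_cast hyn
  have hz : ((hermForm n F₀ q₀ w'' y : F₀) : F) ≠ 0 := by
    intro h0
    rw [h0, mul_zero] at e2
    exact (mul_ne_zero hl₀ hyn') e2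
  refine ⟨hermForm n F₀ q₀ w₀ y * hermForm n F₀ q₀ w'' x / (hermForm n F₀ q₀ w'' y * hermForm n F₀ q₀ w x), ?_⟩
  push_cast
  have hl'' : l'' = l₀ * hermForm n F₀ q₀ w₀ y / hermForm n F₀ q₀ w'' y := by
    field_simp
    exact e2.symm
  rw [hl''] at e1
  field_simp at e1 ⊢
  linear_combination e1

include S in
/-- Rational isotropic vectors in a plane. -/
theorem exists_iso_comb {u u₀ : Fin n → F₀} (hu : hermForm n F₀ q₀ u u = 0) (hu₀ : hermForm n F₀ q₀ u₀ u₀ = 0) :
    ∃ c : F₀, c ≠ 0 ∧ hermForm n F₀ q₀ (u + c • u₀) (u + c • u₀) = 0 := by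
  by_cases h0 : hermForm n F₀ q₀ u u₀ = 0
  · refine ⟨1, one_ne_zero, ?_⟩
    have h0' := herm_eq_zero_swap S.hF₀ h0
    rw [one_smul, herm_add_left, herm_add_right S.hF₀, herm_add_right S.hF₀, hu, hu₀, h0, h0']
    ring
  · obtain ⟨e, he0, he⟩ := exists_trace_zero_ne S.hF₀
    have h0' : hermForm n F₀ q₀ u₀ u ≠ 0 := fun h => h0 (herm_eq_zero_swap S.hF₀ h)
    refine ⟨e / hermForm n F₀ q₀ u₀ u, div_ne_zero he0 h0', ?_⟩
    rw [herm_add_left, herm_add_right S.hF₀, herm_add_right S.hF₀, herm_smul_left, herm_smul_left, herm_smul_right,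
      herm_smul_right, hu, hu₀, div_pow, ← herm_swap S.hF₀ u₀ u]
    field_simp
    linear_combination (hermForm n F₀ q₀ u u₀ * hermForm n F₀ q₀ u₀ u) * he

include S in
/-- An element mapping the rational isotropic vectors to multiples of rational vectors is in the subfield group. -/
theorem mem_of_iso_lines (hn : 2 ≤ n) {g : GL (Fin n) F}
    (h : ∀ u : Fin n → F₀, u ≠ 0 → hermForm n F₀ q₀ u u = 0 →
      ∃ (l : F) (w : Fin n → F₀), (g : Matrix (Fin n) (Fin n) F) *ᵥ cv F₀ u = l • cv F₀ w) :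
    ∃ d : F, d ≠ 0 ∧ ∀ i j, d * (g : Matrix (Fin n) (Fin n) F) i j ∈ F₀ := by
  have h01 : (⟨0, by omega⟩ : Fin n) ≠ ⟨1, by omega⟩ := by simp
  obtain ⟨u₀, p', a, b, ha, hp, hp', hu₀, hpp', hppp⟩ := exists_hyp_pair (q := q₀) (n := n) S.hF₀ h01
  have hu₀0 : u₀ ≠ 0 := by
    rintro rfl
    rw [herm_zero_left] at hppp
    exact zero_ne_one hppp
  have hg0 : ∀ x : Fin n → F, (g : Matrix (Fin n) (Fin n) F) *ᵥ x = 0 → x = 0 := by
    intro x hx
    rw [← inv_mulVec g x, hx, Matrix.mulVec_zero]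
  obtain ⟨l₀, w₀, hl₀w₀⟩ := h u₀ hu₀0 hu₀
  have hl₀ : l₀ ≠ 0 := by
    rintro rfl
    rw [zero_smul] at hl₀w₀
    exact cv_ne_zero S hu₀0 (hg0 _ hl₀w₀)
  have hw₀ : w₀ ≠ 0 := by
    rintro rfl
    rw [cv_zero, smul_zero] at hl₀w₀
    exact cv_ne_zero S hu₀0 (hg0 _ hl₀w₀)
  -- all multipliers are rational multiples of `l₀`
  have key : ∀ u : Fin n → F₀, u ≠ 0 → hermForm n F₀ q₀ u u = 0 →
      ∃ y : Fin n → F₀, (g : Matrix (Fin n) (Fin n) F) *ᵥ cv F₀ u = l₀ • cv F₀ y := by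
    intro u hu0 hu
    by_cases hdep : ∃ s : F₀, u = s • u₀
    · obtain ⟨s, rfl⟩ := hdep
      refine ⟨s • w₀, ?_⟩
      rw [cv_smul, Matrix.mulVec_smul, hl₀w₀, cv_smul, smul_comm]
    push Not at hdep
    obtain ⟨c, hc0, hc⟩ := exists_iso_comb S hu hu₀
    obtain ⟨l, w, hlw⟩ := h u hu0 hu
    have hne : u + c • u₀ ≠ 0 := by
      intro h0
      apply hdep (-c)
      rw [neg_smul]
      exact eq_neg_of_add_eq_zero_left h0
    obtain ⟨l'', w'', hw''⟩ := h _ hne hc
    have hind : ∀ s : F₀, w ≠ s • w₀ := by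
      intro s hs
      have h1 : (g : Matrix (Fin n) (Fin n) F) *ᵥ (cv F₀ u - (l * s / l₀) • cv F₀ u₀) = 0 := by
        rw [Matrix.mulVec_sub, Matrix.mulVec_smul, hlw, hl₀w₀, hs, cv_smul, smul_smul, smul_smul]
        have : l * s / l₀ * l₀ = l * s := by field_simp
        rw [this, sub_self]
      have h2 := sub_eq_zero.1 (hg0 _ h1)
      obtain ⟨i, hi⟩ : ∃ i, u₀ i ≠ 0 := by
        by_contra hcon
        push Not at hcon
        exact hu₀0 (funext hcon)
      have hi' : (u₀ i : F) ≠ 0 := by exact_mod_cast hi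
      apply hdep (u i / u₀ i)
      apply cv_injective (F₀ := F₀)
      have h3 := congrFun h2 i
      simp only [cv_apply, Pi.smul_apply, smul_eq_mul] at h3
      rw [h2, cv_smul]
      congr 1
      push_cast
      rw [h3]
      field_simp
    rw [cv_add, cv_smul, Matrix.mulVec_add, Matrix.mulVec_smul, hlw, hl₀w₀, smul_smul] at hw''
    have hc0' : (c : F) ≠ 0 := by exact_mod_cast hc0
    obtain ⟨t, ht⟩ := ratio S (mul_ne_zero hc0' hl₀) hw₀ hind hw''
    refine ⟨(c * t) • w, ?_⟩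
    rw [hlw, ht, cv_smul, smul_smul]
    congr 1
    push_cast
    ring
  -- basis vectors
  have hbas : ∀ j, ∃ y : Fin n → F₀, (g : Matrix (Fin n) (Fin n) F) *ᵥ Pi.single j 1 = l₀ • cv F₀ y := by
    intro j
    obtain ⟨i, hij⟩ : ∃ i, i ≠ j := by
      have : Nontrivial (Fin n) := Fin.nontrivial_iff_two_le.2 hn
      exact exists_ne j
    obtain ⟨x, x', hxx, hx, hx'⟩ := exists_two_norm S.hF₀
    have key' : ∀ b : F₀, b * b ^ q₀ = -1 → (Pi.single i 1 + b • Pi.single j 1 : Fin n → F₀) ≠ 0 ∧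
        hermForm n F₀ q₀ (Pi.single i 1 + b • Pi.single j 1) (Pi.single i 1 + b • Pi.single j 1) = 0 := by
      intro b hb
      refine ⟨fun h0 => ?_, ?_⟩
      · have := congrFun h0 i
        simp [hij] at this
      · simp only [herm_add_left, herm_add_right S.hF₀, herm_smul_left, herm_smul_right,
          herm_single_right S.hF₀, Pi.single_eq_same, one_pow]
        simp [hij, hij.symm]
        linear_combination hb
    have hne : (x : F) - x' ≠ 0 := by
      intro h0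
      apply hxx
      rw [sub_eq_zero] at h0
      exact_mod_cast h0
    obtain ⟨y, hy⟩ := key _ (key' x hx).1 (key' x hx).2
    obtain ⟨y', hy'⟩ := key _ (key' x' hx').1 (key' x' hx').2
    refine ⟨(x - x')⁻¹ • (y - y'), ?_⟩
    rw [cv_add, cv_smul, cv_single, cv_single, Matrix.mulVec_add, Matrix.mulVec_smul] at hy hy'
    rw [cv_smul, cv_sub, smul_comm, smul_sub, smul_sub, ← hy, ← hy']
    push_cast
    ext k
    simp only [Pi.smul_apply, Pi.sub_apply, Pi.add_apply, smul_eq_mul]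
    field_simp
    ring
  refine ⟨l₀⁻¹, inv_ne_zero hl₀, fun i j => ?_⟩
  obtain ⟨y, hy⟩ := hbas j
  have h1 := congrFun hy i
  rw [Matrix.mulVec_single_one] at h1
  change (g : Matrix (Fin n) (Fin n) F) i j = _ at h1
  rw [h1]
  simp only [Pi.smul_apply, smul_eq_mul, cv_apply]
  rw [← mul_assoc, inv_mul_cancel₀ hl₀, one_mul]
  exact (y i).2

variable {M : Subgroup (GL (Fin n) F)} (hM : ∀ (u w : Fin n → F₀) (μ : F₀), IsSiegel q₀ u w μ → HasS q M (cv F₀ u) (cv F₀ w) (μ : F))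
variable (hMU : ∀ g ∈ M, ∀ x y, hermForm n F q ((g : Matrix (Fin n) (Fin n) F) *ᵥ x)
  ((g : Matrix (Fin n) (Fin n) F) *ᵥ y) = hermForm n F q x y)

omit [Fintype F] [Fintype F₀] in
theorem psi_dot (d : F) (v x : Fin n → F) : (fun i => d * v i ^ q) ⬝ᵥ x = d * hermForm n F q x v := by
  rw [dotProduct, herm_def, Finset.mul_sum]
  exact Finset.sum_congr rfl fun i _ => by ring

theorem hasTv_of_hasS (hF : Fintype.card F = q ^ 2) {v : Fin n → F} {d : F} (h : HasS q M v 0 d) :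
    H873.HasTv M v (fun i => d * v i ^ q) := by
  obtain ⟨h0, g, hg, hgx⟩ := h
  refine ⟨by rw [psi_dot, h0.iso, mul_zero], g, hg, ?_⟩
  apply Matrix.mulVec_injective
  funext x
  rw [H873.one_add_mulVec, psi_dot, hgx, herm_zero_right hF, smul_zero, add_zero, sub_zero]

include S hM hMU

/-- Odd characteristic: the centre of a transvection of `M` is orthogonal to a rational isotropic vector. -/
theorem no_gen_odd (p : ℕ) [Fact p.Prime] [CharP F p] (hp : p ≠ 2) (hn : 4 ≤ n)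
    (hB : ∀ c, CC F₀ n q q₀ M c → c ∈ F₀) {v : Fin n → F} {d : F} (hd : d ≠ 0) (h : HasS q M v 0 d)
    (hgen : ∀ w : Fin n → F₀, w ≠ 0 → hermForm n F₀ q₀ w w = 0 → hermForm n F q v (cv F₀ w) ≠ 0) : False := by
  have h2 : (2 : F) ≠ 0 := by
    intro h0
    have h3 : ((2 : ℕ) : F) = 0 := by exact_mod_cast h0
    rw [CharP.cast_eq_zero_iff F p] at h3
    have h4 := Nat.le_of_dvd (by norm_num) h3
    have h5 := (Fact.out : p.Prime).two_le
    omega
  have h01 : (⟨0, by omega⟩ : Fin n) ≠ ⟨1, by omega⟩ := by simp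
  obtain ⟨w, wp, a, b, ha, -, -, hw, hwp, hwwp⟩ := exists_hyp_pair (q := q₀) (n := n) S.hF₀ h01
  have hw0 : w ≠ 0 := by
    rintro rfl
    rw [herm_zero_left] at hwwp
    exact zero_ne_one hwwp
  obtain ⟨w', hw0', hw', hww', hind⟩ := exists_second S.hF₀ hn hw0 hw
  obtain ⟨κ, hκ0, hκ⟩ := exists_trace_zero_ne S.hF₀
  have hκ0' : (κ : F) ≠ 0 := by exact_mod_cast hκ0
  have htw : ∀ u : Fin n → F₀, hermForm n F₀ q₀ u u = 0 → HasS q M (cv F₀ u) 0 (κ : F) := by
    intro u hu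
    have := hasS_rat S hM (u := u) (w := 0) (μ := κ) ⟨hu, herm_zero_left _, by
      rw [herm_zero_left, add_zero]; exact hκ⟩
    rwa [cv_zero] at this
  have hvw := hgen w hw0 hw
  have hwv : hermForm n F q (cv F₀ w) v ≠ 0 := fun h0 => hvw (herm_eq_zero_swap S.hF h0)
  obtain ⟨z, hz, hzx⟩ := neg_mem p hp (hasTv_of_hasS S.hF h) (hasTv_of_hasS S.hF (htw w hw))
    (by rw [psi_dot]; exact mul_ne_zero hκ0' hvw) (by rw [psi_dot]; exact mul_ne_zero hd hwv)
  simp only [psi_dot] at hzx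
  have hWW' : hermForm n F q (cv F₀ w') (cv F₀ w) = 0 := herm_cv_eq_zero S hww'
  have hWW : hermForm n F q (cv F₀ w) (cv F₀ w) = 0 := herm_cv_eq_zero S hw
  obtain ⟨c, hc⟩ : ∃ c : F, c = hermForm n F q (cv F₀ w') v / hermForm n F q (cv F₀ w) v := ⟨_, rfl⟩
  have hzw' : (z : Matrix (Fin n) (Fin n) F) *ᵥ cv F₀ w' = cv F₀ w' - (2 * c) • cv F₀ w := by
    rw [hzx, hWW']
    simp only [mul_zero, zero_mul, zero_smul, sub_zero]
    congr 2
    rw [hc]
    field_simp
  have h3 := (htw w' hw').conj hz (hMU z hz)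
  rw [Matrix.mulVec_zero] at h3
  obtain ⟨l, e, hle⟩ := rat_of_orth S hM hn hB hκ0' h3 hw0 hw (by
    rw [hzw', herm_sub_left, herm_smul_left, hWW', hWW]; ring)
  rw [hzw'] at hle
  -- `c` is rational
  have hindw : ∀ s : F₀, w ≠ s • w' := by
    intro s hs
    have hs0 : s ≠ 0 := by
      rintro rfl
      rw [zero_smul] at hs
      exact hw0 hs
    apply hind s⁻¹
    rw [hs, smul_smul, inv_mul_cancel₀ hs0, one_smul]
  obtain ⟨y, hy, hy'⟩ := exists_dual S.hF₀ hind
  obtain ⟨y₁, hy₁, hy₁'⟩ := exists_dual S.hF₀ hindw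
  have hys := herm_eq_zero_swap S.hF₀ hy
  have hys₁ := herm_eq_zero_swap S.hF₀ hy₁
  have hyn : ((hermForm n F₀ q₀ w' y : F₀) : F) ≠ 0 := by
    have : hermForm n F₀ q₀ w' y ≠ 0 := fun h0 => hy' (herm_eq_zero_swap S.hF₀ h0)
    exact_mod_cast this
  have hyn₁ : ((hermForm n F₀ q₀ w y₁ : F₀) : F) ≠ 0 := by
    have : hermForm n F₀ q₀ w y₁ ≠ 0 := fun h0 => hy₁' (herm_eq_zero_swap S.hF₀ h0)
    exact_mod_cast this
  have e1 := congrArg (fun z => hermForm n F q z (cv F₀ y)) hle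
  have e2 := congrArg (fun z => hermForm n F q z (cv F₀ y₁)) hle
  simp only [herm_sub_left, herm_smul_left, herm_cv S, hys, hys₁, ZeroMemClass.coe_zero, mul_zero, sub_zero, zero_sub] at e1 e2
  have hey : ((hermForm n F₀ q₀ e y : F₀) : F) ≠ 0 := by
    intro h0
    rw [h0, mul_zero] at e1
    exact hyn e1
  have hcr : c ∈ F₀ := by
    have h4 : c = -(((hermForm n F₀ q₀ w' y / hermForm n F₀ q₀ e y) * hermForm n F₀ q₀ e y₁ /
        (2 * hermForm n F₀ q₀ w y₁) : F₀) : F) := by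
      have hl : l = hermForm n F₀ q₀ w' y / hermForm n F₀ q₀ e y := by
        field_simp
        exact e1.symm
      rw [hl] at e2
      have hc2 : ((2 : F₀) : F) = 2 := by norm_cast
      push_cast
      rw [hc2]
      field_simp at e2 ⊢
      linear_combination -e2
    rw [h4]
    exact F₀.neg_mem (SetLike.coe_mem _)
  -- a rational isotropic vector orthogonal to `v`
  refine hgen (w' - (⟨c, hcr⟩ : F₀) • w) (fun h0 => hind _ (sub_eq_zero.1 h0)) ?_ ?_
  · have hww'' := herm_eq_zero_swap S.hF₀ hww'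
    rw [herm_sub_left, herm_sub_right S.hF₀, herm_sub_right S.hF₀, herm_smul_left, herm_smul_left, herm_smul_right,
      herm_smul_right, hw, hw', hww', hww'']
    ring
  · apply herm_eq_zero_swap S.hF
    rw [cv_sub, cv_smul, herm_sub_left, herm_smul_left]
    change _ - c * _ = 0
    rw [hc]
    field_simp
    ring

end secE

section secF



variable {F : Type*} [Field F] [Fintype F] {n q : ℕ} {F₀ : Subfield F} [Fintype F₀] {q₀ : ℕ}
variable (S : Setup F₀ q q₀)
variable {M : Subgroup (GL (Fin n) F)} (hM : ∀ (u w : Fin n → F₀) (μ : F₀), IsSiegel q₀ u w μ → HasS q M (cv F₀ u) (cv F₀ w) (μ : F))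
variable (hMU : ∀ g ∈ M, ∀ x y, hermForm n F q ((g : Matrix (Fin n) (Fin n) F) *ᵥ x)
  ((g : Matrix (Fin n) (Fin n) F) *ᵥ y) = hermForm n F q x y)

include S hM hMU

/-- Characteristic two: the centre of a transvection of `M` is orthogonal to a rational isotropic vector. -/
theorem no_gen_two [CharP F 2] (hn : 4 ≤ n)
    (hB : ∀ c, CC F₀ n q q₀ M c → c ∈ F₀) {v : Fin n → F} {d : F} (hd : d ≠ 0) (h : HasS q M v 0 d)
    (hgen : ∀ w : Fin n → F₀, w ≠ 0 → hermForm n F₀ q₀ w w = 0 → hermForm n F q v (cv F₀ w) ≠ 0) : False := by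
  have : Finite (GL (Fin n) F) := inferInstance
  have : Finite M := inferInstance
  have htwo : ∀ x : F, x + x = 0 := fun x => CharTwo.add_self_eq_zero x
  have htwo' : ∀ x : Fin n → F, x + x = 0 := fun x => by ext i; exact htwo _
  have h01 : (⟨0, by omega⟩ : Fin n) ≠ ⟨1, by omega⟩ := by simp
  obtain ⟨w, wp, a, b, ha, -, -, hw, hwp, hwwp⟩ := exists_hyp_pair (q := q₀) (n := n) S.hF₀ h01
  have hw0 : w ≠ 0 := by
    rintro rfl
    rw [herm_zero_left] at hwwp
    exact zero_ne_one hwwp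
  obtain ⟨w', hw0', hw', hww', hind⟩ := exists_second S.hF₀ hn hw0 hw
  have hindw : ∀ s : F₀, w ≠ s • w' := by
    intro s hs
    have hs0 : s ≠ 0 := by
      rintro rfl
      rw [zero_smul] at hs
      exact hw0 hs
    apply hind s⁻¹
    rw [hs, smul_smul, inv_mul_cancel₀ hs0, one_smul]
  have hvv := h.1.iso
  have hv0 : v ≠ 0 := by
    rintro rfl
    exact hgen w hw0 hw (herm_zero_left _)
  -- dual vectors over `F`
  obtain ⟨y₁, hy₁w, hy₁w'⟩ : ∃ y : Fin n → F, hermForm n F q y (cv F₀ w) = 0 ∧ hermForm n F q y (cv F₀ w') ≠ 0 := by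
    obtain ⟨y, hy, hy'⟩ := exists_dual S.hF₀ hind
    refine ⟨cv F₀ y, herm_cv_eq_zero S hy, ?_⟩
    rw [herm_cv S]
    exact_mod_cast hy'
  obtain ⟨y₂, hy₂w', hy₂w⟩ : ∃ y : Fin n → F, hermForm n F q y (cv F₀ w') = 0 ∧ hermForm n F q y (cv F₀ w) ≠ 0 := by
    obtain ⟨y, hy, hy'⟩ := exists_dual S.hF₀ hindw
    refine ⟨cv F₀ y, herm_cv_eq_zero S hy, ?_⟩
    rw [herm_cv S]
    exact_mod_cast hy'
  have hww : hermForm n F₀ q₀ w w' = 0 := herm_eq_zero_swap S.hF₀ hww'
  have hWW : hermForm n F q (cv F₀ w) (cv F₀ w) = 0 := herm_cv_eq_zero S hw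
  have hW'W' : hermForm n F q (cv F₀ w') (cv F₀ w') = 0 := herm_cv_eq_zero S hw'
  have hWW' : hermForm n F q (cv F₀ w) (cv F₀ w') = 0 := herm_cv_eq_zero S hww
  have hW'W : hermForm n F q (cv F₀ w') (cv F₀ w) = 0 := herm_cv_eq_zero S hww'
  -- the two involutions
  obtain ⟨-, x, hxM, hxx⟩ := id h
  have hxx' : ∀ y, (x : Matrix (Fin n) (Fin n) F) *ᵥ y = y + (d * hermForm n F q y v) • v := by
    intro y
    rw [hxx, herm_zero_right S.hF, smul_zero, add_zero, sub_zero]
  obtain ⟨-, y, hyM, hyy⟩ := hasS_rat S hM (u := w) (w := w') (μ := 0) ⟨hw, hww', by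
    rw [hw', zero_pow_q S.hF₀]; simp⟩
  have hyy' : ∀ t, (y : Matrix (Fin n) (Fin n) F) *ᵥ t =
      t + (hermForm n F q t (cv F₀ w) • cv F₀ w' + hermForm n F q t (cv F₀ w') • cv F₀ w) := by
    intro t
    rw [hyy, add_assoc]
    congr 2
    have : -hermForm n F q t (cv F₀ w') = hermForm n F q t (cv F₀ w') := by
      rw [neg_eq_iff_add_eq_zero]; exact htwo _
    rw [ZeroMemClass.coe_zero, zero_mul, zero_sub, this]
  have hx2 : x * x = 1 := by
    apply H930.gl_ext
    intro t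
    rw [Units.val_mul, ← Matrix.mulVec_mulVec, hxx', hxx', herm_add_left, herm_smul_left, hvv, mul_zero, add_zero,
      add_assoc, htwo', add_zero, Units.val_one, Matrix.one_mulVec]
  have hy2 : y * y = 1 := by
    apply H930.gl_ext
    intro t
    rw [Units.val_mul, ← Matrix.mulVec_mulVec, hyy', hyy']
    simp only [herm_add_left, herm_smul_left, hWW, hWW', hW'W, hW'W', mul_zero, add_zero]
    rw [add_assoc, htwo', add_zero, Units.val_one, Matrix.one_mulVec]
  obtain ⟨t₀, ht₀⟩ := exists_herm_ne_zero S.hF hv0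
  have ht₀' : hermForm n F q t₀ v ≠ 0 := fun h0 => ht₀ (herm_eq_zero_swap S.hF h0)
  have hx1 : x ≠ 1 := by
    intro h1
    have h2 := hxx' t₀
    rw [h1, Units.val_one, Matrix.one_mulVec] at h2
    have h3 := add_eq_left.1 h2.symm
    rcases smul_eq_zero.1 h3 with h4 | h4
    · exact (mul_ne_zero hd ht₀') h4
    · exact hv0 h4
  have hy1 : y ≠ 1 := by
    intro h1
    have h2 := hyy' y₁
    rw [h1, Units.val_one, Matrix.one_mulVec, hy₁w, zero_smul, zero_add] at h2
    have h3 := add_eq_left.1 h2.symm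
    rcases smul_eq_zero.1 h3 with h4 | h4
    · exact hy₁w' h4
    · exact cv_ne_zero S hw0 h4
  -- not conjugate
  have hnc : ¬ IsConj (⟨x, hxM⟩ : M) ⟨y, hyM⟩ := by
    intro hc
    obtain ⟨g, hg⟩ := isConj_iff.1 hc
    have hg' : (g : GL (Fin n) F) * x = y * (g : GL (Fin n) F) := by
      have := congrArg (fun z : M => (z : GL (Fin n) F)) hg
      simp only [Subgroup.coe_mul, Subgroup.coe_inv] at this
      rw [← this]
      group
    have h1 : ∀ t : Fin n → F, (d * hermForm n F q t v) • ((g : GL (Fin n) F) : Matrix (Fin n) (Fin n) F) *ᵥ v =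
        hermForm n F q (((g : GL (Fin n) F) : Matrix (Fin n) (Fin n) F) *ᵥ t) (cv F₀ w) • cv F₀ w' +
        hermForm n F q (((g : GL (Fin n) F) : Matrix (Fin n) (Fin n) F) *ᵥ t) (cv F₀ w') • cv F₀ w := by
      intro t
      have h2 := congrArg (fun z : GL (Fin n) F => (z : Matrix (Fin n) (Fin n) F) *ᵥ t) hg'
      simp only [Units.val_mul, ← Matrix.mulVec_mulVec] at h2
      rw [hxx', hyy', Matrix.mulVec_add, Matrix.mulVec_smul] at h2
      exact add_left_cancel h2
    have h2 := h1 (((((g : GL (Fin n) F))⁻¹ : GL (Fin n) F) : Matrix (Fin n) (Fin n) F) *ᵥ y₁)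
    have h3 := h1 (((((g : GL (Fin n) F))⁻¹ : GL (Fin n) F) : Matrix (Fin n) (Fin n) F) *ᵥ y₂)
    rw [H930.mulVec_inv] at h2 h3
    rw [hy₁w, zero_smul, zero_add] at h2
    rw [hy₂w', zero_smul, add_zero] at h3
    -- so `w'` is a multiple of `w` over `F`
    obtain ⟨α, hα⟩ : ∃ α, α = d * hermForm n F q (((((g : GL (Fin n) F))⁻¹ : GL (Fin n) F) : Matrix (Fin n) (Fin n) F) *ᵥ y₁) v := ⟨_, rfl⟩
    obtain ⟨β, hβ⟩ : ∃ β, β = d * hermForm n F q (((((g : GL (Fin n) F))⁻¹ : GL (Fin n) F) : Matrix (Fin n) (Fin n) F) *ᵥ y₂) v := ⟨_, rfl⟩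
    rw [← hα] at h2
    rw [← hβ] at h3
    have hα0 : α ≠ 0 := by
      rintro rfl
      rw [zero_smul] at h2
      rcases smul_eq_zero.1 h2.symm with h4 | h4
      · exact hy₁w' h4
      · exact cv_ne_zero S hw0 h4
    have h4 : (hermForm n F q y₂ (cv F₀ w)) • cv F₀ w' = (β * α⁻¹ * hermForm n F q y₁ (cv F₀ w')) • cv F₀ w := by
      rw [← h3, ← smul_smul _ _ (cv F₀ w), ← h2, smul_smul, mul_assoc, inv_mul_cancel₀ hα0, mul_one]
    have h5 := congrArg (fun z => hermForm n F q y₁ z) h4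
    simp only [herm_smul_right, hy₁w, mul_zero] at h5
    rcases mul_eq_zero.1 h5 with h6 | h6
    · exact (pow_ne_zero q hy₂w) h6
    · exact hy₁w' h6
  have hox : orderOf (⟨x, hxM⟩ : M) = 2 := by
    apply orderOf_eq_prime
    · apply Subtype.ext
      simpa [pow_two] using hx2
    · intro h1
      exact hx1 (congrArg Subtype.val h1)
  have hoy : orderOf (⟨y, hyM⟩ : M) = 2 := by
    apply orderOf_eq_prime
    · apply Subtype.ext
      simpa [pow_two] using hy2
    · intro h1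
      exact hy1 (congrArg Subtype.val h1)
  obtain ⟨⟨z, hzM⟩, hz2, hxz, hyz⟩ := Cfsg.Agent.HN.CloseFinal.exists_central hox hoy hnc
  have hz2' : z * z = 1 := by
    have h1 := pow_orderOf_eq_one (⟨z, hzM⟩ : M)
    rw [hz2, pow_two] at h1
    exact congrArg Subtype.val h1
  have hz1 : z ≠ 1 := by
    intro h1
    rw [orderOf_eq_one_iff.2 (by apply Subtype.ext; exact h1)] at hz2
    norm_num at hz2
  have hxz' : x * z = z * x := congrArg Subtype.val hxz
  have hyz' : y * z = z * y := congrArg Subtype.val hyz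
  have hzz : ∀ w : Fin n → F, (z : Matrix (Fin n) (Fin n) F) *ᵥ ((z : Matrix (Fin n) (Fin n) F) *ᵥ w) = w := by
    intro w
    rw [Matrix.mulVec_mulVec, ← Units.val_mul, hz2', Units.val_one, Matrix.one_mulVec]
  have hzU := hMU z hzM
  -- `z` fixes `v`
  have hzv : (z : Matrix (Fin n) (Fin n) F) *ᵥ v = v := by
    have h1 : ∀ t : Fin n → F, (d * hermForm n F q ((z : Matrix (Fin n) (Fin n) F) *ᵥ t) v) • v =
        (d * hermForm n F q t v) • (z : Matrix (Fin n) (Fin n) F) *ᵥ v := by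
      intro t
      have h2 := congrArg (fun z : GL (Fin n) F => (z : Matrix (Fin n) (Fin n) F) *ᵥ t) hxz'
      simp only [Units.val_mul, ← Matrix.mulVec_mulVec] at h2
      rw [hxx', hxx' t, Matrix.mulVec_add, Matrix.mulVec_smul] at h2
      exact add_left_cancel h2
    obtain ⟨s, hs⟩ : ∃ s : F, (z : Matrix (Fin n) (Fin n) F) *ᵥ v = s • v := by
      refine ⟨(d * hermForm n F q t₀ v)⁻¹ * (d * hermForm n F q ((z : Matrix (Fin n) (Fin n) F) *ᵥ t₀) v), ?_⟩
      rw [← smul_smul, h1 t₀, smul_smul, inv_mul_cancel₀ (mul_ne_zero hd ht₀'), one_smul]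
    have h2 := hzz v
    rw [hs, Matrix.mulVec_smul, hs, smul_smul] at h2
    obtain ⟨i, hi⟩ : ∃ i, v i ≠ 0 := by
      by_contra hcon
      push Not at hcon
      exact hv0 (funext hcon)
    have h3 := congrFun h2 i
    simp only [Pi.smul_apply, smul_eq_mul] at h3
    have h4 : s * s = 1 := mul_right_cancel₀ hi (by rw [h3, one_mul])
    have h5 : (s - 1) * (s - 1) = 0 := by
      linear_combination h4 - htwo s + htwo 1
    have h6 : s = 1 := by
      rcases mul_eq_zero.1 h5 with h7 | h7 <;> exact sub_eq_zero.1 h7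
    rw [hs, h6, one_smul]
  -- the images of `w`, `w'`
  have hspan : ∀ t : Fin n → F, ∃ α β : F, (z : Matrix (Fin n) (Fin n) F) *ᵥ
      (hermForm n F q t (cv F₀ w) • cv F₀ w' + hermForm n F q t (cv F₀ w') • cv F₀ w) = α • cv F₀ w' + β • cv F₀ w := by
    intro t
    have h2 := congrArg (fun z : GL (Fin n) F => (z : Matrix (Fin n) (Fin n) F) *ᵥ t) hyz'
    simp only [Units.val_mul, ← Matrix.mulVec_mulVec] at h2
    rw [hyy', hyy' t, Matrix.mulVec_add] at h2
    exact ⟨_, _, (add_left_cancel h2).symm⟩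
  have hzw : ∃ α β : F, (z : Matrix (Fin n) (Fin n) F) *ᵥ cv F₀ w = α • cv F₀ w' + β • cv F₀ w := by
    obtain ⟨α, β, h1⟩ := hspan y₁
    rw [hy₁w, zero_smul, zero_add, Matrix.mulVec_smul] at h1
    refine ⟨(hermForm n F q y₁ (cv F₀ w'))⁻¹ * α, (hermForm n F q y₁ (cv F₀ w'))⁻¹ * β, ?_⟩
    rw [← smul_smul, ← smul_smul, ← smul_add, ← h1, smul_smul, inv_mul_cancel₀ hy₁w', one_smul]
  have hzw' : ∃ α β : F, (z : Matrix (Fin n) (Fin n) F) *ᵥ cv F₀ w' = α • cv F₀ w' + β • cv F₀ w := by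
    obtain ⟨α, β, h1⟩ := hspan y₂
    rw [hy₂w', zero_smul, add_zero, Matrix.mulVec_smul] at h1
    refine ⟨(hermForm n F q y₂ (cv F₀ w))⁻¹ * α, (hermForm n F q y₂ (cv F₀ w))⁻¹ * β, ?_⟩
    rw [← smul_smul, ← smul_smul, ← smul_add, ← h1, smul_smul, inv_mul_cancel₀ hy₂w, one_smul]
  -- rational transvections
  obtain ⟨κ, hκ0, hκ⟩ := exists_trace_zero_ne S.hF₀
  have hκ0' : (κ : F) ≠ 0 := by exact_mod_cast hκ0
  have htw : ∀ u : Fin n → F₀, hermForm n F₀ q₀ u u = 0 →
      HasS q M ((z : Matrix (Fin n) (Fin n) F) *ᵥ cv F₀ u) 0 (κ : F) := by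
    intro u hu
    have h1 := hasS_rat S hM (u := u) (w := 0) (μ := κ) ⟨hu, herm_zero_left _, by
      rw [herm_zero_left, add_zero]; exact hκ⟩
    rw [cv_zero] at h1
    have h2 := h1.conj hzM hzU
    rwa [Matrix.mulVec_zero] at h2
  -- points of the line
  have hline : ∀ s s' : F₀, ∃ (l : F) (b : Fin n → F₀),
      (z : Matrix (Fin n) (Fin n) F) *ᵥ cv F₀ (s • w + s' • w') = l • cv F₀ b := by
    intro s s'
    have hiso : hermForm n F₀ q₀ (s • w + s' • w') (s • w + s' • w') = 0 := by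
      simp only [herm_add_left, herm_add_right S.hF₀, herm_smul_left, herm_smul_right, hw, hw', hww, hww']
      ring
    refine rat_of_orth S hM hn hB hκ0' (htw _ hiso) hw0 hw ?_
    obtain ⟨α, β, h1⟩ := hzw
    obtain ⟨α', β', h2⟩ := hzw'
    rw [cv_add, cv_smul, cv_smul, Matrix.mulVec_add, Matrix.mulVec_smul, Matrix.mulVec_smul, h1, h2]
    simp only [herm_add_left, herm_smul_left, hWW, hW'W]
    ring
  -- all isotropic rational vectors
  have hall : ∀ u : Fin n → F₀, u ≠ 0 → hermForm n F₀ q₀ u u = 0 →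
      ∃ (l : F) (b : Fin n → F₀), (z : Matrix (Fin n) (Fin n) F) *ᵥ cv F₀ u = l • cv F₀ b := by
    intro u hu0 hu
    -- a point of the line orthogonal to `u`
    obtain ⟨s, s', hss, hsu⟩ : ∃ s s' : F₀, s • w + s' • w' ≠ 0 ∧ hermForm n F₀ q₀ u (s • w + s' • w') = 0 := by
      by_cases h1 : hermForm n F₀ q₀ u w = 0
      · exact ⟨1, 0, by rw [one_smul, zero_smul, add_zero]; exact hw0, by rw [one_smul, zero_smul, add_zero]; exact h1⟩
      · have h1' : hermForm n F₀ q₀ w u ≠ 0 := fun h0 => h1 (herm_eq_zero_swap S.hF₀ h0)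
        refine ⟨hermForm n F₀ q₀ w' u, -hermForm n F₀ q₀ w u, ?_, ?_⟩
        · intro h0
          apply hind (hermForm n F₀ q₀ w' u / hermForm n F₀ q₀ w u)
          rw [neg_smul, ← sub_eq_add_neg, sub_eq_zero] at h0
          rw [div_eq_inv_mul, ← smul_smul, h0, smul_smul, inv_mul_cancel₀ h1', one_smul]
        · rw [herm_add_right S.hF₀, herm_smul_right, herm_smul_right, neg_pow_q S.hF₀, ← herm_swap S.hF₀ w' u,
            ← herm_swap S.hF₀ w u]
          ring
    obtain ⟨l, b, hlb⟩ := hline s s'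
    have hiso : hermForm n F₀ q₀ (s • w + s' • w') (s • w + s' • w') = 0 := by
      simp only [herm_add_left, herm_add_right S.hF₀, herm_smul_left, herm_smul_right, hw, hw', hww, hww']
      ring
    have hz0 : (z : Matrix (Fin n) (Fin n) F) *ᵥ cv F₀ (s • w + s' • w') ≠ 0 := by
      intro h0
      have h1 := hzz (cv F₀ (s • w + s' • w'))
      rw [h0, Matrix.mulVec_zero] at h1
      exact cv_ne_zero S hss h1.symm
    have hl0 : l ≠ 0 := by
      rintro rfl
      rw [zero_smul] at hlb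
      exact hz0 hlb
    have hlq : l ^ q ≠ 0 := pow_ne_zero _ hl0
    have hb0 : b ≠ 0 := by
      rintro rfl
      rw [cv_zero, smul_zero] at hlb
      exact hz0 hlb
    have hbb : hermForm n F₀ q₀ b b = 0 := by
      have h1 : hermForm n F q ((z : Matrix (Fin n) (Fin n) F) *ᵥ cv F₀ (s • w + s' • w'))
        ((z : Matrix (Fin n) (Fin n) F) *ᵥ cv F₀ (s • w + s' • w')) = 0 := by
        rw [hzU]
        exact herm_cv_eq_zero S hiso
      rw [hlb, herm_smul_left, herm_smul_right, herm_cv S] at h1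
      rcases mul_eq_zero.1 h1 with h2 | h2
      · exact absurd h2 hl0
      · rcases mul_eq_zero.1 h2 with h3 | h3
        · exact absurd h3 hlq
        · exact_mod_cast h3
    refine rat_of_orth S hM hn hB hκ0' (htw u hu) hb0 hbb ?_
    have h1 : hermForm n F q ((z : Matrix (Fin n) (Fin n) F) *ᵥ cv F₀ u)
        ((z : Matrix (Fin n) (Fin n) F) *ᵥ cv F₀ (s • w + s' • w')) = 0 := by
      rw [hzU]
      exact herm_cv_eq_zero S hsu
    rw [hlb, herm_smul_right] at h1
    exact (mul_eq_zero.1 h1).resolve_left hlq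
  obtain ⟨e, he0, he⟩ := mem_of_iso_lines S (by omega) hall
  -- `e` is rational
  have hee : e * e ∈ F₀ := by
    have i₀ : Fin n := ⟨0, by omega⟩
    have h1 : ∑ j, (e * (z : Matrix (Fin n) (Fin n) F) i₀ j) * (e * (z : Matrix (Fin n) (Fin n) F) j i₀) = e * e := by
      have h2 : ((z : Matrix (Fin n) (Fin n) F) * (z : Matrix (Fin n) (Fin n) F)) i₀ i₀ = 1 := by
        rw [← Units.val_mul, hz2', Units.val_one, Matrix.one_apply_eq]
      rw [Matrix.mul_apply] at h2
      calc ∑ j, (e * (z : Matrix (Fin n) (Fin n) F) i₀ j) * (e * (z : Matrix (Fin n) (Fin n) F) j i₀)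
          = e * e * ∑ j, (z : Matrix (Fin n) (Fin n) F) i₀ j * (z : Matrix (Fin n) (Fin n) F) j i₀ := by
            rw [Finset.mul_sum]
            exact Finset.sum_congr rfl fun j _ => by ring
        _ = e * e := by rw [h2, mul_one]
    rw [← h1]
    exact F₀.sum_mem fun j _ => F₀.mul_mem (he _ _) (he _ _)
  have heF : e ∈ F₀ := by
    have : CharP F₀ 2 := inferInstance
    have : Finite F₀ := inferInstance
    obtain ⟨s, hs⟩ : ∃ s : F₀, s * s = ⟨e * e, hee⟩ := by
      obtain ⟨s, hs⟩ := FiniteField.isSquare_of_char_two (F := F₀) (ringChar.eq F₀ 2)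
        (⟨e * e, hee⟩ : F₀)
      exact ⟨s, hs.symm⟩
    have h1 : (s : F) * s = e * e := congrArg Subtype.val hs
    have h2 : (e - s) * (e - s) = 0 := by
      linear_combination -h1 - e * htwo (s : F) + htwo (s : F) * s
    have h3 : e = s := by
      rcases mul_eq_zero.1 h2 with h4 | h4 <;> exact sub_eq_zero.1 h4
    rw [h3]
    exact s.2
  have hzent : ∀ i j, (z : Matrix (Fin n) (Fin n) F) i j ∈ F₀ := by
    intro i j
    have h1 := F₀.div_mem (he i j) heF
    rwa [mul_div_cancel_left₀ _ he0] at h1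
  -- a basis vector moved by `z`
  obtain ⟨j, hj⟩ : ∃ j, (z : Matrix (Fin n) (Fin n) F) *ᵥ Pi.single j 1 ≠ Pi.single j 1 := by
    by_contra hcon
    push Not at hcon
    apply hz1
    apply Units.ext
    ext i j
    have h1 := congrFun (hcon j) i
    rw [Matrix.mulVec_single_one] at h1
    change (z : Matrix (Fin n) (Fin n) F) i j = _ at h1
    rw [h1, Units.val_one, Matrix.one_apply, Pi.single_apply]
  set u : Fin n → F₀ := fun i => ⟨(z : Matrix (Fin n) (Fin n) F) i j, hzent i j⟩ - (Pi.single j 1 : Fin n → F₀) i with hu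
  have hcu : cv F₀ u = (z : Matrix (Fin n) (Fin n) F) *ᵥ Pi.single j 1 - Pi.single j 1 := by
    ext i
    rw [Pi.sub_apply, Matrix.mulVec_single_one, ← cv_single (F₀ := F₀), cv_apply, cv_apply, hu]
    push_cast
    rfl
  have hu0 : u ≠ 0 := by
    intro h0
    rw [h0, cv_zero] at hcu
    exact hj (sub_eq_zero.1 hcu.symm)
  have hsym : hermForm n F q (Pi.single j 1) ((z : Matrix (Fin n) (Fin n) F) *ᵥ Pi.single j 1) =
      hermForm n F q ((z : Matrix (Fin n) (Fin n) F) *ᵥ Pi.single j 1) (Pi.single j 1) := by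
    rw [← hzU, hzz]
  have huu : hermForm n F₀ q₀ u u = 0 := by
    have h1 : hermForm n F q (cv F₀ u) (cv F₀ u) = 0 := by
      rw [hcu, herm_sub_left, herm_sub_right S.hF, herm_sub_right S.hF, hzU, hsym]
      linear_combination htwo (hermForm n F q (Pi.single j 1) (Pi.single j 1)) -
        htwo (hermForm n F q ((z : Matrix (Fin n) (Fin n) F) *ᵥ Pi.single j 1) (Pi.single j 1))
    rw [herm_cv S] at h1
    exact_mod_cast h1
  apply hgen u hu0 huu
  apply herm_eq_zero_swap S.hF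
  rw [hcu, herm_sub_left]
  have h1 : hermForm n F q ((z : Matrix (Fin n) (Fin n) F) *ᵥ Pi.single j 1) v =
      hermForm n F q (Pi.single j 1) v := by
    conv_lhs => rw [← hzv]
    exact hzU _ _
  rw [h1, sub_self]

/-- The dichotomy. -/
theorem dichotomy (hn : 4 ≤ n) {r : ℕ} (hr : r.Prime) (hcard : Fintype.card F = Nat.card F₀ ^ r) :
    SUg n F q ≤ M ∨ M ≤ subfieldSubgroup F₀ (1 : GL (Fin n) F) := by
  rcases all_or_rat S hM hn hr hcard with hC | hB
  · left
    exact SUg_le_of_all S hM hn hC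
  · right
    intro g hg
    have hgen : ∀ {v : Fin n → F} {d : F}, d ≠ 0 → HasS q M v 0 d →
        ∃ w : Fin n → F₀, w ≠ 0 ∧ hermForm n F₀ q₀ w w = 0 ∧ hermForm n F q v (cv F₀ w) = 0 := by
      intro v d hd h
      by_contra hcon
      push Not at hcon
      obtain ⟨p, hp⟩ := CharP.exists F
      have hpp : p.Prime := CharP.char_is_prime F p
      have : Fact p.Prime := ⟨hpp⟩
      by_cases hp2 : p = 2
      · subst hp2
        exact no_gen_two S hM hMU hn hB hd h hcon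
      · exact no_gen_odd S hM hMU p hp2 hn hB hd h hcon
    rw [mem_subfieldSubgroup_iff, inv_one, one_mul, mul_one]
    apply mem_of_iso_lines S (by omega)
    intro u hu0 hu
    obtain ⟨κ, hκ0, hκ⟩ := exists_trace_zero_ne S.hF₀
    have hκ0' : (κ : F) ≠ 0 := by exact_mod_cast hκ0
    have h1 := hasS_rat S hM (u := u) (w := 0) (μ := κ) ⟨hu, herm_zero_left _, by
      rw [herm_zero_left, add_zero]; exact hκ⟩
    rw [cv_zero] at h1
    have h2 := h1.conj hg (hMU g hg)
    rw [Matrix.mulVec_zero] at h2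
    obtain ⟨w, hw0, hw, hvw⟩ := hgen hκ0' h2
    exact rat_of_orth S hM hn hB hκ0' h2 hw0 hw hvw

end secF

end Cfsg.Agent.H972.GUS
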